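import Mathlib

/-!
# ZT-configurations

The common setting of the ladder SUZ3: a doubly transitive group `G` on `Ω` in which only the identity
fixes three points, `Q` the regular normal 2-subgroup of the stabiliser of `a`, `E` the stabiliser of
`a` and `b` (of order `q - 1`), `t` an involution swapping `a` and `b` and inverting `E`, `Z` the set of
elements of `Q` of order at most two: a central subgroup of `Q` of order `q` on whose non-identity
elements `E` is transitive.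
-/

set_option autoImplicit false

namespace Cfsg.Agent.Lib.Helper32.Suz

open MulAction

structure ZT {G Ω : Type*} [Group G] [MulAction G Ω] [Fintype Ω] (a b : Ω) (Q Z E : Subgroup G)
    (t : G) (q : ℕ) : Prop where
  h2 : IsMultiplyPretransitive G Ω 2
  h3 : ∀ g : G, ∀ a b c : Ω, a ≠ b → b ≠ c → a ≠ c → g • a = a → g • b = b → g • c = c → g = 1
  hab : a ≠ b
  hq : 4 ≤ q
  hqe : Even q
  Qle : Q ≤ stabilizer G a
  Qcard : Nat.card Q + 1 = Fintype.card Ω
  Qfix : ∀ u ∈ Q, u ≠ 1 → ∀ c : Ω, u • c = c → c = a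
  Qnorm : ∀ g : G, g • a = a → ∀ u ∈ Q, g * u * g⁻¹ ∈ Q
  Q2 : IsPGroup 2 Q
  hE : E = stabilizer G a ⊓ stabilizer G b
  Ecard : Nat.card E = q - 1
  ta : t • a = b
  tb : t • b = a
  tt : t * t = 1
  tinv : ∀ x ∈ E, t * x * t⁻¹ = x⁻¹
  Zmem : ∀ g : G, g ∈ Z ↔ g ∈ Q ∧ g * g = 1
  Zcen : ∀ z ∈ Z, ∀ u ∈ Q, z * u = u * z
  Zcard : Nat.card Z = q
  Ztr : ∀ z ∈ Z, z ≠ 1 → ∀ z' ∈ Z, z' ≠ 1 → ∃ x ∈ E, x * z * x⁻¹ = z'

/-- the block through `a` and `b` -/
def blk {G Ω : Type*} [Group G] [MulAction G Ω] (a b : Ω) (Z : Subgroup G) : Set Ω :=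
  {c | c = a ∨ ∃ z ∈ Z, z • b = c}

/-- the setwise stabiliser of a set of points -/
def stabSet (G : Type*) {Ω : Type*} [Group G] [MulAction G Ω] (Δ : Set Ω) : Subgroup G where
  carrier := {g | ∀ c, g • c ∈ Δ ↔ c ∈ Δ}
  one_mem' := by intro c; rw [one_smul]
  mul_mem' := by
    intro g h hg hh c
    rw [mul_smul, hg, hh]
  inv_mem' := by
    intro g hg c
    have := hg (g⁻¹ • c)
    rw [smul_inv_smul] at this
    exact this.symm

theorem mem_stabSet {G Ω : Type*} [Group G] [MulAction G Ω] (Δ : Set Ω) (g : G) :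
    g ∈ stabSet G Δ ↔ ∀ c, g • c ∈ Δ ↔ c ∈ Δ := Iff.rfl

end Cfsg.Agent.Lib.Helper32.Suz
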